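import Cfsg.Agent.H224.Pw.Six
import Cfsg.Agent.H928.Pw.TwP

/-!
# `E_7(q)`, `q = 4, 8, 9` : products of two elements of order prime to `6` (S2465, helper224)

The Levi subgroup of type `A_5 A_1`; the elements `(x₆, x₂)`, `x₆` with the eigenvalues `1, α, α^q, ..., α^(q^4)`,
`α` of prime order `l ∣ Φ_5(q)`, `x₂` of prime order `r ≥ 5`, `r ∣ q² - 1`.
-/

set_option autoImplicit false
set_option linter.unusedSectionVars false

namespace Cfsg.Agent.H224.Pw

open Polynomial
open Cfsg.Lie Cfsg.Agent.Nodes.KindChev Cfsg.Agent.KFacts.RgdChevCoord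
open Cfsg.Agent.H85.Pw Cfsg.Agent.H78.Pw
open Cfsg.Agent.H928.Pw.Dg

universe u

/-- an element of given order of a finite field -/
theorem exists_order {K' : Type*} [Field K'] [Finite K'] {d : ℕ} (hd : d ∣ Nat.card K' - 1) : ∃ x : K', orderOf x = d := by
  obtain ⟨z, hz⟩ := IsCyclic.exists_ofOrder_eq_natCard (α := K'ˣ)
  rw [Nat.card_units] at hz
  have h1 : 1 < Nat.card K' := Finite.one_lt_card
  obtain ⟨k, hk⟩ := hd
  have hd0 : 0 < d := Nat.pos_of_ne_zero fun h => by rw [h, zero_mul] at hk; omega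
  have hk0 : k ≠ 0 := fun h => by rw [h, mul_zero] at hk; omega
  refine ⟨((z ^ k : K'ˣ) : K'), ?_⟩
  rw [orderOf_units, orderOf_pow_of_dvd hk0 (by rw [hz, hk]; exact Dvd.intro_left d rfl), hz, hk,
    Nat.mul_div_cancel _ (Nat.pos_of_ne_zero hk0)]

section two

variable {K : Type u} [Field K] {K' : Type} [Field K'] (i : K →+* K')

theorem ev_of_sp {r : ℕ} (hr : 0 < r) {ζ : K'} (hζ : IsPrimitiveRoot ζ r) {x : Matrix.SpecialLinearGroup (Fin 2) K} (h : Sp r x) :
    Ev i (E1 r) x := by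
  let j : K' →+* AlgebraicClosure K' := algebraMap K' (AlgebraicClosure K')
  obtain ⟨lam, g, e, h1, h2, h3⟩ := h.diag (j.comp i) (IsAlgClosed.splits _) (by norm_num)
  have hj : IsPrimitiveRoot (j ζ) r := hζ.map_of_injective j.injective
  have : NeZero r := ⟨hr.ne'⟩
  choose k hk1 hk2 using fun a => hj.eq_pow_of_pow_eq_one (h2 a)
  let μ : Fin 2 → K' := fun a => ζ ^ k a
  have hμ : ∀ a, j (μ a) = lam a := fun a => by rw [← hk2 a, ← map_pow]
  have hch : (x.1.charpoly.map i).map j = (∏ a, (X - C (μ a))).map j := by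
    rw [Polynomial.map_map, ← Matrix.charpoly_map]
    have hgg' : ((g⁻¹ : GL (Fin 2) (AlgebraicClosure K')) : Matrix (Fin 2) (Fin 2) (AlgebraicClosure K')) *
        (g : Matrix (Fin 2) (Fin 2) (AlgebraicClosure K')) = 1 := by
      rw [← Units.val_mul, inv_mul_cancel]; rfl
    rw [e, Matrix.charpoly_mul_comm, ← mul_assoc, hgg', one_mul, Matrix.charpoly_diagonal, Polynomial.map_prod]
    refine Finset.prod_congr rfl fun a _ => ?_
    rw [Polynomial.map_sub, map_X, map_C, hμ]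
  have hch' : x.1.charpoly.map i = ∏ a, (X - C (μ a)) := Polynomial.map_injective j j.injective hch
  have hsep : (∏ a, (X - C (μ a))).Separable := by
    rw [← hch']
    exact h.sep.map
  refine ⟨μ, ⟨fun a => ?_, ?_, ?_⟩, separable_prod_X_sub_C_iff.1 hsep, hch'⟩
  · apply j.injective
    rw [map_pow, hμ, h2, map_one]
  · apply j.injective
    rw [map_mul, hμ, hμ, map_one, ← h1, Fin.prod_univ_two]
  · intro h4
    apply h3 0
    rw [← hμ, h4, map_one]

end two

/-- **The pairs.** -/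
theorem six_E7_of {K : Type} [Field K] [Finite K] (hK : 3 ≤ Nat.card K) {l r : ℕ} (hl : l.Prime) (hl5 : 5 ≤ l)
    (hr : r.Prime) (hr5 : 5 ≤ r) (hlr : l ≠ r) (h5 : l ∣ Nat.card K ^ 5 - 1) (h1 : ¬ l ∣ Nat.card K - 1)
    (h2 : r ∣ Nat.card K ^ 2 - 1) : All 6 ↥(chevE7.group K) := by
  obtain ⟨ch, hch⟩ := CharP.exists K
  have hp : Fact ch.Prime := ⟨(CharP.char_is_prime_or_zero K ch).resolve_right (CharP.char_ne_zero_of_finite K ch)⟩
  have hm0 : NeZero 10 := ⟨by norm_num⟩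
  let K' := FiniteField.Extension K ch 10
  have hK' : Nat.card K' = Nat.card K ^ 10 := FiniteField.natCard_extension K ch 10
  let i : K →+* K' := algebraMap K K'
  have hd : ∀ {m : ℕ}, m ∣ 10 → Nat.card K ^ m - 1 ∣ Nat.card K' - 1 := by
    rintro m ⟨k, hk⟩
    rw [hK', hk, pow_mul]
    have := Nat.sub_dvd_pow_sub_pow (Nat.card K ^ m) 1 k
    rwa [one_pow] at this
  obtain ⟨α, hα⟩ := exists_order (K' := K') (h5.trans (hd (by norm_num)))
  obtain ⟨β, hβ⟩ := exists_order (K' := K') (h2.trans (hd (by norm_num)))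
  have hβ' : IsPrimitiveRoot β r := hβ ▸ IsPrimitiveRoot.orderOf β
  have hcop : Nat.Coprime l r := (Nat.coprime_primes hl hr).2 hlr
  have hc6 : ∀ {s : ℕ}, s.Prime → 5 ≤ s → s.Coprime 6 := by
    intro s hs h
    rw [Nat.Prime.coprime_iff_not_dvd hs]
    intro h3
    have := Nat.le_of_dvd (by norm_num) h3
    have h6 : s = 5 ∨ s = 6 := by omega
    rcases h6 with rfl | rfl
    · omega
    · exact absurd hs (by norm_num)
  obtain ⟨φ₁, hφ₁⟩ := T5.hom K
  obtain ⟨φ₂, hφ₂⟩ := T1.hom K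
  refine all_of_pairs (N := l * r) (Nat.Coprime.mul_left (hc6 hl hl5) (hc6 hr hr5)) ?_
  refine pairs_of_two Cfsg.Agent.Nodes.KindE.isType7 T5 T1 hsub hcom hφ₁ hφ₂ i (E₁ := E5 l) (E₂ := E1 r) (by norm_num)
    (Cfsg.Agent.S1054.result chevE7 (by simp)) Cfsg.Agent.Nodes.ChevChart.irr7 (hout hl.ne_zero hr.ne_zero hcop)
    (fun lam h a => ?_) (fun mu h a => ?_) (P6 i hK hl h5 h1 hα) (fun L hL U hU => ?_)
  · rw [pow_mul, h.pow, one_pow]
  · rw [mul_comm, pow_mul, h.pow, one_pow]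
  · obtain ⟨x, y, e, hx, hy⟩ := Cfsg.Agent.H928.Pw.TwP.pp2 (K := K) hr hr5 h2 L hL U hU
    exact ⟨x, y, e, ev_of_sp i hr.pos hβ' hx, ev_of_sp i hr.pos hβ' hy⟩

/-- **`E_7(4)`, `E_7(8)`, `E_7(9)`.** -/
theorem six_E7_small {K : Type} [Field K] [Finite K] (hK : Nat.card K = 4 ∨ Nat.card K = 8 ∨ Nat.card K = 9) :
    All 6 ↥(chevE7.group K) := by
  rcases hK with h | h | h
  · exact six_E7_of (l := 31) (r := 5) (by omega) (by norm_num) (by norm_num) (by norm_num) (by norm_num) (by norm_num)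
      (by rw [h]; norm_num) (by rw [h]; norm_num) (by rw [h]; norm_num)
  · exact six_E7_of (l := 31) (r := 7) (by omega) (by norm_num) (by norm_num) (by norm_num) (by norm_num) (by norm_num)
      (by rw [h]; norm_num) (by rw [h]; norm_num) (by rw [h]; norm_num)
  · exact six_E7_of (l := 11) (r := 5) (by omega) (by norm_num) (by norm_num) (by norm_num) (by norm_num) (by norm_num)
      (by rw [h]; norm_num) (by rw [h]; norm_num) (by rw [h]; norm_num)

end Cfsg.Agent.H224.Pw
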